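import Cfsg.Agent.H163.E65.Defs
import Cfsg.Agent.S2123
import Cfsg.Prelude.Def_KGroupFacts

/-!
# S3650, task OUTER: a proper extension of `E₆(5)` has an element of order `2 * 601`
-/

set_option autoImplicit false

open Subgroup Cfsg

namespace Cfsg.Agent.H631.OuterE65

universe u

open Cfsg.Agent.H163.E65

/-- the outer automorphism group of `E₆(5)` has order `2` -/
theorem card_out_L5 : Nat.card (Cfsg.Out L5) = 2 := by
  have h := Cfsg.Agent.S2123.result (F := ZMod 5) 5 1 (by simp [ZMod.card])
  rw [h]; decide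

theorem index_inn_L5 : (Inn L5).index = 2 := by
  rw [Subgroup.index_eq_card]
  exact card_out_L5

/-- `|Out|` is invariant under isomorphisms -/
theorem index_inn_congr {S L : Type*} [Group S] [Group L] (e : S ≃* L) :
    (Inn S).index = (Inn L).index := by
  have hmap : (Inn S).map (MulAut.congr e).toMonoidHom = Inn L := by
    ext a
    constructor
    · rintro ⟨b, ⟨s, rfl⟩, rfl⟩
      refine ⟨e s, ?_⟩
      ext y
      simp [MulAut.congr]
    · rintro ⟨l, rfl⟩
      refine ⟨MulAut.conj (e.symm l), ⟨e.symm l, rfl⟩, ?_⟩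
      ext y
      simp [MulAut.congr]
  rw [← hmap]
  exact (Subgroup.index_map_of_bijective (MulAut.congr e).bijective _).symm

/-- the abstract version -/
theorem outer_aux {A : Type*} [Group A] (L : Subgroup A) (hL : (Inn L).index = 2)
    (h : ∃ (x : L) (γ : MulAut L), orderOf x = 601 ∧ orderOf γ = 2 ∧ γ x = x)
    {X : Type u} [Group X] [Finite X] (S : Subgroup X) [S.Normal] (e : S ≃* L)
    (hC : Subgroup.centralizer (S : Set X) = ⊥) (hne : S ≠ ⊤) : ∃ x : X, orderOf x = 2 * 601 := by
  classical
  obtain ⟨x, γ, hx, hγ, hγx⟩ := h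
  -- the conjugation map `X → Aut S`
  set φ : X →* MulAut S := MulAut.conjNormal with hφ
  have hφs : ∀ s : S, φ (s : X) = MulAut.conj s := by
    intro s
    ext t
    simp [hφ]
  have hinj : Function.Injective φ := by
    rw [injective_iff_map_eq_one]
    intro y hy
    have h1 : y ∈ Subgroup.centralizer (S : Set X) := by
      rw [Subgroup.mem_centralizer_iff]
      intro s hs
      have h2 : φ y ⟨s, hs⟩ = ⟨s, hs⟩ := by rw [hy]; rfl
      have h3 : y * s * y⁻¹ = s := by
        have := congrArg Subtype.val h2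
        simpa [hφ, MulAut.conjNormal_apply] using this
      calc s * y = (y * s * y⁻¹) * y := by rw [h3]
        _ = y * s := by group
    rw [hC] at h1
    exact Subgroup.mem_bot.1 h1
  have hidx : (Inn S).index = 2 := (index_inn_congr e).trans hL
  have hle : Inn S ≤ φ.range := by
    rintro a ⟨s, rfl⟩
    exact ⟨s, hφs s⟩
  have hRne : Inn S ≠ φ.range := by
    intro heq
    apply hne
    rw [eq_top_iff]
    intro y _
    have h1 : φ y ∈ Inn S := by rw [heq]; exact ⟨y, rfl⟩
    obtain ⟨s, hs⟩ := h1
    have h2 : φ (s : X) = φ y := by rw [hφs]; exact hs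
    rw [← hinj h2]
    exact s.2
  have hR : φ.range = ⊤ := by
    have h1 : (Inn S).relIndex φ.range * φ.range.index = (Inn S).index :=
      Subgroup.relIndex_mul_index hle
    rw [hidx] at h1
    have h2 : (Inn S).relIndex φ.range ≠ 1 := by
      intro h3
      exact hRne (le_antisymm hle (Subgroup.relIndex_eq_one.1 h3))
    have h3 : φ.range.index ∣ 2 := ⟨_, by rw [← h1, mul_comm]⟩
    rcases (Nat.dvd_prime Nat.prime_two).1 h3 with h4 | h4
    · exact Subgroup.index_eq_one.1 h4
    · rw [h4] at h1
      have h5 : (Inn S).relIndex φ.range = 1 := by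
        have h6 : (Inn S).relIndex φ.range * 2 = 1 * 2 := h1
        exact Nat.eq_of_mul_eq_mul_right (by norm_num) h6
      exact absurd h5 h2
  -- transport
  set x' : S := e.symm x with hx'
  set γ' : MulAut S := MulAut.congr e.symm γ with hγ'
  have hγ'o : orderOf γ' = 2 :=
    (orderOf_injective (MulAut.congr e.symm).toMonoidHom (MulAut.congr e.symm).injective γ).trans hγ
  have hx'o : orderOf (x' : X) = 601 :=
    (Subgroup.orderOf_coe x').trans
      ((orderOf_injective e.symm.toMonoidHom e.symm.injective x).trans hx)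
  obtain ⟨g, hg⟩ : γ' ∈ φ.range := by rw [hR]; exact Subgroup.mem_top _
  have hgo : orderOf g = 2 :=
    ((orderOf_injective φ hinj g).symm.trans (congrArg orderOf hg)).trans hγ'o
  have hfix : γ' x' = x' := by
    simp [hγ', hx', MulAut.congr, hγx]
  have hcomm : Commute g (x' : X) := by
    apply hinj
    rw [map_mul, map_mul, hg, hφs]
    ext t
    simp only [MulAut.mul_apply, MulAut.conj_apply, map_mul, map_inv, hfix]
  have hcop : (orderOf g).Coprime (orderOf (x' : X)) := by
    rw [hgo, hx'o]; norm_num
  refine ⟨g * x', (hcomm.orderOf_mul_eq_mul_orderOf_of_coprime hcop).trans ?_⟩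
  rw [hgo, hx'o]

/-- a proper extension of `E₆(5)` has an element of order `1202` -/
theorem outer (h : ∃ (x : L5) (γ : MulAut L5), orderOf x = 601 ∧ orderOf γ = 2 ∧ γ x = x)
    {X : Type u} [Group X] [Finite X] (S : Subgroup X) [S.Normal] (e : S ≃* L5)
    (hC : Subgroup.centralizer (S : Set X) = ⊥) (hne : S ≠ ⊤) : ∃ x : X, orderOf x = 2 * 601 :=
  outer_aux _ index_inn_L5 h S e hC hne

end Cfsg.Agent.H631.OuterE65
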